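import Mathlib
import Cfsg.Agent.Base
import Cfsg.Agent.Lib.Char.Mackey
import Cfsg.Agent.Lib.Deg.Basic
import Cfsg.Agent.Lib.Ord.Count
import Cfsg.Prelude.Def_DegreeGraph

/-!
Characters induced from linear characters: Mackey's irreducibility criterion, and a parity
argument for constituents.
-/

set_option autoImplicit false

namespace H8.Deg

open Cfsg H6
open scoped ComplexConjugate

variable {G : Type*} [Group G] [Fintype G]

open Classical in
theorem inner_ind (B : Subgroup G) (θ : B →* ℂˣ) :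
    classInner (indFun B fun b => (θ b : ℂ)) (indFun B fun b => (θ b : ℂ)) =
      1 + ((∑ x ∈ Finset.univ.filter (fun x : G => x ∉ B ∧
        ∀ (k : B) (h : x⁻¹ * k * x ∈ B), θ ⟨_, h⟩ = θ k),
          (Nat.card (H7.mackeySub B B x) : ℝ) / (Nat.card B * Nat.card B) : ℝ) : ℂ) := by
  have hμ := H7.isCharacter_hom θ
  have hcf := char_isClassFunction hμ
  rw [H7.classInner_indFun_indFun_weighted]
  have hirr : ∀ x : G, IsIrrCharacter _ (H7.mackeyFun B x fun b => (θ b : ℂ)) := fun x =>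
    isIrrCharacter_of_one_eq_one (isCharacter_comp (H7.mackeyHom _ _ x) hμ) (by
      change ((θ (H7.mackeyHom _ _ x 1) : ℂˣ) : ℂ) = 1
      simp)
  have hirr' : ∀ x : G, IsIrrCharacter _ (fun l : H7.mackeySub B B x => (θ l : ℂ)) := fun x =>
    isIrrCharacter_of_one_eq_one (isCharacter_restrict _ hμ) (by simp)
  have h1 : ∀ x : G, ((Nat.card (H7.mackeySub B B x) : ℂ) / (Nat.card B * Nat.card B)) *
      classInner (H7.mackeyFun B x fun b => (θ b : ℂ)) (fun l : H7.mackeySub B B x => (θ l : ℂ)) =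
      extendByZero B (fun _ => (Nat.card B : ℂ)⁻¹) x +
        if x ∉ B ∧ ∀ (k : B) (h : x⁻¹ * k * x ∈ B), θ ⟨_, h⟩ = θ k then
          (Nat.card (H7.mackeySub B B x) : ℂ) / (Nat.card B * Nat.card B) else 0 := by
    intro x
    by_cases hx : x ∈ B
    · have e1 : H7.mackeySub B B x = ⊤ := by
        rw [eq_top_iff]
        intro k _
        exact B.mul_mem (B.mul_mem (B.inv_mem hx) k.2) hx
      have e2 : (H7.mackeyFun B x fun b => (θ b : ℂ)) = fun l : H7.mackeySub B B x => (θ l : ℂ) := by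
        funext l
        exact classFun_conj' hcf l ⟨x, hx⟩
      rw [H7.extendByZero_of_mem _ _ hx, e2, irr_inner_self (hirr' x), mul_one, e1,
        Subgroup.card_top, if_neg fun h => h.1 hx, add_zero]
      have := card_ne_zero (G := B)
      field_simp
    · rw [H7.extendByZero_of_not_mem _ _ hx, zero_add, irr_inner (hirr x) (hirr' x)]
      by_cases h : ∀ (k : B) (h : x⁻¹ * k * x ∈ B), θ ⟨_, h⟩ = θ k
      · have e : (H7.mackeyFun B x fun b => (θ b : ℂ)) = fun l : H7.mackeySub B B x => (θ l : ℂ) :=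
          funext fun l => congrArg Units.val (h l.1 l.2)
        rw [if_pos e, if_pos ⟨hx, h⟩, mul_one]
      · rw [if_neg fun e => h fun k hk => Units.ext (congrFun e ⟨k, hk⟩), if_neg fun e => h e.2, mul_zero]
  rw [Finset.sum_congr rfl fun x _ => h1 x, Finset.sum_add_distrib, H7.sum_extendByZero, Finset.sum_const,
    Finset.card_univ, nsmul_eq_mul, ← Nat.card_eq_fintype_card, mul_inv_cancel₀ card_ne_zero,
    ← Finset.sum_filter]
  push_cast
  rfl

/-- Mackey's irreducibility criterion for linear characters. -/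
theorem isIrr_ind_iff (B : Subgroup G) (θ : B →* ℂˣ) :
    IsIrrCharacter G (indFun B fun b => (θ b : ℂ)) ↔
      ∀ x ∉ B, ∃ (k : B) (h : x⁻¹ * k * x ∈ B), θ ⟨_, h⟩ ≠ θ k := by
  classical
  rw [isIrrCharacter_iff_inner_self, inner_ind, and_iff_right (H7.isCharacter_indFun_hom B θ),
    add_eq_left, Complex.ofReal_eq_zero, Finset.sum_eq_zero_iff_of_nonneg fun _ _ => by positivity]
  have h1 : ∀ x : G, (Nat.card (H7.mackeySub B B x) : ℝ) / (Nat.card B * Nat.card B) ≠ 0 := fun x => by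
    have := Nat.card_pos (α := H7.mackeySub B B x)
    have := Nat.card_pos (α := B)
    positivity
  simp [h1]

theorem index_mem (B : Subgroup G) (θ : B →* ℂˣ)
    (h : ∀ x ∉ B, ∃ (k : B) (h : x⁻¹ * k * x ∈ B), θ ⟨_, h⟩ ≠ θ k) : B.index ∈ charDegrees G :=
  ⟨⟨_, (isIrr_ind_iff B θ).2 h⟩, H87.deg_of_eq (by simp [H7.indFun_one])⟩

omit [Fintype G] in
theorem card_mem_sd {A C : Type*} [CommGroup A] [Group C] [Finite A] [Finite C] (φ : C →* MulAut A)
    (ψ : A →* ℂˣ) (h : ∀ c ≠ 1, ∃ a, ψ (φ c a) ≠ ψ a) : Nat.card C ∈ charDegrees (A ⋊[φ] C) := by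
  have : Finite (A ⋊[φ] C) := Finite.of_equiv _ SemidirectProduct.equivProd.symm
  have := Fintype.ofFinite (A ⋊[φ] C)
  let θ : (SemidirectProduct.rightHom (φ := φ)).ker →* ℂˣ := MonoidHom.mk' (fun b => ψ b.1.left) fun a b => by
    have : a.1.right = 1 := a.2
    simp [this]
  have := index_mem _ θ fun x hx => by
    obtain ⟨a, ha⟩ := h x.right⁻¹ (inv_ne_one.2 hx)
    refine ⟨⟨SemidirectProduct.inl a, by simp⟩, by simp, ?_⟩
    simpa [θ, mul_comm, mul_left_comm] using ha
  rwa [Subgroup.index_ker, MonoidHom.range_eq_top.2 SemidirectProduct.rightHom_surjective,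
    Subgroup.card_top] at this

/-- parity of the degree of a character from a fixed point free pairing of a subgroup -/
theorem parity {α : G → ℂ} (hα : IsCharacter G α) (U : Subgroup G) [Fintype U] (ι : U → U)
    (h1 : ∀ u ≠ 1, ι u ≠ 1 ∧ ι u ≠ u ∧ ι (ι u) = u ∧ IsConj (u : G) (ι u)) {n : ℕ}
    (hn : ∑ u : U, α u = n) : charDegree α % 2 = n % 2 := by
  classical
  let f : U → integralClosure ℤ ℂ := fun u => ⟨α u, char_isIntegral hα _⟩
  have h2 : ∑ u ∈ Finset.univ.erase 1, Ideal.Quotient.mk (Ideal.span {2}) (f u) = 0 :=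
    Finset.sum_involution (fun u _ => ι u) (fun u hu => by
      have : f (ι u) = f u := Subtype.ext
        (H7.isClassFunction_of_isConj (char_isClassFunction hα) (h1 u (by simpa using hu)).2.2.2).symm
      rw [this, ← map_add, ← two_mul, Ideal.Quotient.eq_zero_iff_mem]
      exact Ideal.mul_mem_right _ _ (Ideal.mem_span_singleton_self _))
      (fun u hu _ => (h1 u (by simpa using hu)).2.1) (fun u hu => by simpa using (h1 u (by simpa using hu)).1)
      fun u hu => (h1 u (by simpa using hu)).2.2.1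
  rw [← map_sum, Ideal.Quotient.eq_zero_iff_mem, Ideal.mem_span_singleton] at h2
  obtain ⟨r, hr⟩ := h2
  have h3 : ∑ u ∈ Finset.univ.erase (1 : U), α u = 2 * r := by
    have := congrArg Subtype.val hr
    push_cast at this
    exact this
  rw [← Finset.add_sum_erase _ _ (Finset.mem_univ 1), h3, OneMemClass.coe_one, ← H87.deg_cast hα] at hn
  obtain ⟨w, hw⟩ := H8.exists_int_of_isIntegral_rat (q := ((n : ℚ) - charDegree α) / 2) (by
    rw [show ((((n : ℚ) - charDegree α) / 2 : ℚ) : ℂ) = r by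
      push_cast
      linear_combination (-1 / 2 : ℂ) * hn]
    exact r.2)
  have h4 : (n : ℤ) - charDegree α = 2 * w := by
    have : (n : ℚ) - charDegree α = 2 * w := by rw [← hw]; ring
    exact_mod_cast this
  omega

/-- a reducible induced character with a two-dimensional fixed space of `U` -/
theorem split (B U : Subgroup G) [Fintype B] [Fintype U] (hU : U ≤ B) (θ : B →* ℂˣ) (hθ : ∀ b : B, b.1 ∈ U → θ b = 1)
    (h2 : ∑ u : U, indFun B (fun b => (θ b : ℂ)) u = 2 * Nat.card U)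
    (hr : ¬ IsIrrCharacter G (indFun B fun b => (θ b : ℂ))) :
    ∃ α β : IrrCharacter G, charDegree α.1 + charDegree β.1 = B.index ∧
      ∀ γ : IrrCharacter G, γ = α ∨ γ = β → ∑ u : U, γ.1 u = Nat.card U ∧
        classInner (fun b => (θ b : ℂ)) (fun b : B => γ.1 b) ≠ 0 := by
  classical
  set χ := indFun B fun b => (θ b : ℂ) with hχ
  have hc : IsCharacter G χ := H7.isCharacter_indFun_hom B θ
  have hUc := card_ne_zero (G := U)
  have a0 : ∀ φ : U → ℂ, IsCharacter U φ → ∃ m : ℕ, ∑ u : U, φ u = m * Nat.card U := fun φ h => by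
    obtain ⟨m, hm⟩ := char_inner_nat h (isCharacter_one (G := U))
    refine ⟨m, ?_⟩
    rw [← hm, mul_comm, H7.card_mul_classInner]
    simp
  have a1 : ∀ φ ψ : G → ℂ, IsCharacter G φ → IsCharacter G (χ - φ) → IsIrrCharacter G ψ →
      classInner φ ψ ≠ 0 → classInner (fun b => (θ b : ℂ)) (fun b : B => ψ b) ≠ 0 ∧
        ∃ m : ℕ, ∑ u : U, ψ u = (m + 1) * Nat.card U := fun φ ψ h1 h2 h3 h4 => by
    have h5 : classInner (fun b => (θ b : ℂ)) (fun b : B => ψ b) ≠ 0 := by
      rw [← H7.classInner_indFun_left _ _ (irr_isClassFunction h3), ← hχ, ← sub_add_cancel χ φ,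
        H7.classInner_add_left]
      obtain ⟨a, ha⟩ := char_inner_nat h2 (irr_isCharacter h3)
      obtain ⟨b, hb⟩ := char_inner_nat h1 (irr_isCharacter h3)
      rw [hb] at h4
      rw [ha, hb]
      norm_cast at h4 ⊢
      omega
    refine ⟨h5, ?_⟩
    have h6 := isCharacter_sub_of_inner_ne_zero (isCharacter_restrict B (irr_isCharacter h3))
      (isIrrCharacter_of_one_eq_one (H7.isCharacter_hom θ) (by simp))
      (H7.classInner_eq_zero_comm.not.1 h5)
    obtain ⟨m, hm⟩ := a0 _ (isCharacter_comp (Subgroup.inclusion hU) h6)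
    refine ⟨m, ?_⟩
    have h7 : ∀ u : U, θ (Subgroup.inclusion hU u) = 1 := fun u => hθ _ u.2
    simp only [Pi.sub_apply, h7, Subgroup.coe_inclusion, Finset.sum_sub_distrib, Units.val_one,
      Finset.sum_const, Finset.card_univ, ← Nat.card_eq_fintype_card, nsmul_eq_mul] at hm
    linear_combination hm
  have h0 : χ ≠ 0 := fun h => by
    simp only [h, Pi.zero_apply, Finset.sum_const_zero] at h2
    exact mul_ne_zero two_ne_zero hUc h2.symm
  obtain ⟨α, hα, hα'⟩ := H87.exists_constituent hc h0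
  have b1 := isCharacter_sub_of_inner_ne_zero hc hα hα'
  obtain ⟨β, hβ, hβ'⟩ := H87.exists_constituent b1 fun h => hr (by rw [sub_eq_zero.1 h]; exact hα)
  have b2 := isCharacter_sub_of_inner_ne_zero b1 hβ hβ'
  obtain ⟨c1, m1, c2⟩ := a1 χ α hc (by rw [sub_self]; exact isCharacter_zero) hα hα'
  obtain ⟨c3, m2, c4⟩ := a1 _ β b1 (by rw [sub_sub_cancel]; exact irr_isCharacter hα) hβ hβ'
  obtain ⟨m3, c5⟩ := a0 _ (isCharacter_restrict U b2)
  have c6 : m1 + 1 + (m2 + 1) + m3 = 2 := by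
    simp only [Pi.sub_apply, Finset.sum_sub_distrib, h2, c2, c4] at c5
    have : ((m1 + 1 + (m2 + 1) + m3 : ℕ) : ℂ) = (2 : ℕ) := mul_right_cancel₀ hUc (by
      push_cast; linear_combination -c5)
    exact_mod_cast this
  obtain ⟨rfl, rfl, rfl⟩ : m1 = 0 ∧ m2 = 0 ∧ m3 = 0 := by omega
  have c7 : χ - α - β = 0 := by
    by_contra h
    obtain ⟨γ, hγ, hγ'⟩ := H87.exists_constituent b2 h
    obtain ⟨-, m4, c8⟩ := a1 _ γ b2 (by
      rw [sub_sub, sub_sub_cancel]; exact isCharacter_add (irr_isCharacter hα) (irr_isCharacter hβ)) hγ hγ'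
    obtain ⟨m5, c9⟩ := a0 _ (isCharacter_restrict U (isCharacter_sub_of_inner_ne_zero b2 hγ hγ'))
    simp only [Pi.sub_apply, Finset.sum_sub_distrib, h2, c2, c4, c8] at c9
    have : ((m4 + 1 + m5 : ℕ) : ℂ) = (0 : ℕ) := mul_right_cancel₀ hUc (by
      push_cast; linear_combination -c9)
    have := Nat.cast_injective this
    omega
  refine ⟨⟨α, hα⟩, ⟨β, hβ⟩, ?_, ?_⟩
  · have := congrFun c7 1
    simp only [Pi.sub_apply, hχ, H7.indFun_one, ← H87.irr_deg_cast hα, ← H87.irr_deg_cast hβ] at this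
    have : ((charDegree α + charDegree β : ℕ) : ℂ) = B.index := by
      simp at this ⊢
      linear_combination -this
    exact_mod_cast this
  · rintro γ (rfl | rfl)
    exacts [⟨by simpa using c2, c1⟩, ⟨by simpa using c4, c3⟩]

omit [Fintype G] in
theorem charDegrees_congr {H : Type*} [Group H] (e : G ≃* H) : charDegrees G = charDegrees H := by
  ext d
  exact ⟨fun ⟨χ, h⟩ => ⟨⟨_, isIrrCharacter_comp_surjective e.symm.toMonoidHom e.symm.surjective χ.2⟩,
    by rw [← h]; exact H87.deg_comp _ _⟩,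
    fun ⟨χ, h⟩ => ⟨⟨_, isIrrCharacter_comp_surjective e.toMonoidHom e.surjective χ.2⟩,
    by rw [← h]; exact H87.deg_comp _ _⟩⟩

end H8.Deg
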