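import Mathlib
import Cfsg.Agent.Base
import Cfsg.Agent.Lib.Spec8.Deg
import Cfsg.Agent.Lib.Spec8.Frob
import Cfsg.Agent.Lib.MinDeg8.U3Spec
import Cfsg.Agent.Lib.Unitary.Simple

/-!
Some character degrees of `PSU₃(3)`, and a solvable group of the same order with a character of degree 42.
-/

set_option autoImplicit false

namespace H8.Deg

open Cfsg H11.U H8.U3 H17.Ord

theorem six {G : Type*} [Group G] [Finite G] [IsSimpleGroup G] (hG : Nat.card G = 7 * 864)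
    (h : ∀ g : G, 7 ∣ orderOf g → orderOf g = 7) : ∃ d ∈ charDegrees G, 6 ∣ d := by
  have : Fact (Nat.Prime 7) := ⟨by norm_num⟩
  have hna := noncomm_of_not_prime (G := G) (by rw [hG]; norm_num)
  obtain ⟨P, hP⟩ := exists_subgroup_prime (G := G) 7 (by rw [hG]; norm_num)
  obtain ⟨e, k, n, h1, -, -, h2, h3, -, h4, h5, ⟨B⟩⟩ := setup hna 7 hG (by norm_num) P hP
  have hC := B.selfcent_of fun y hy h7 => by
    obtain ⟨x, hx, hx7⟩ := B.exists_sing
    have a1 : Commute x y := hy x hx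
    have a2 := a1.orderOf_mul_eq_mul_orderOf_of_coprime (by
      rw [hx7]; exact (Nat.Prime.coprime_iff_not_dvd this.out).2 h7)
    rw [hx7] at a2
    have a3 := h _ (a2 ▸ dvd_mul_right _ _)
    exact orderOf_eq_one_iff.1 (by omega)
  rw [hC, hP] at h1
  obtain rfl : k = 1 := by omega
  obtain rfl : e = 3 := by
    have := Nat.le_of_dvd (by norm_num) h5
    interval_cases e <;> omega
  by_contra h6
  have h7 : ∀ χ : IrrCharacter G, ¬ 6 ∣ dg χ := fun χ h => h6 ⟨_, ⟨χ, rfl⟩, h⟩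
  have hX : ∀ χ ∈ B.X, dg χ ∈ [1, 8, 27] := fun χ hχ => by
    have := B.degX_mem hG 78 (by norm_num) [1, 6, 8, 27, 36, 48] (by decide +kernel) hχ
    have := h7 χ
    simp only [List.mem_cons, List.not_mem_nil, or_false] at *
    omega
  obtain ⟨θ, hθ⟩ := B.Y_nonempty
  have a1 := B.degY_mem hG 55 (by norm_num) [3, 4, 18, 24, 32] (by decide +kernel) hθ
  have a2 := B.cnt_card _ (by decide) hX
  have a3 := B.cnt_deg (by norm_num) _ (by decide) hX hθ
  have a4 := cnt_one hna (B.triv_mem_X (by norm_num) hna)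
  have a5 := h7 θ
  simp [sg, a4] at a1 a2 a3
  rcases B.dsgn with h | h <;> rw [h] at a3 <;> omega

variable {F : Type*} [Field F] [Fintype F] {q : ℕ} [IsSq F q]

set_option hygiene false in
local notation "GG" => SU 3 F q

theorem lam_rel {e : Fin 3 → F} (he : Iso q e) {x : GG} (hx : x ∉ St q e) (k : St q e) (h : x⁻¹ * k * x ∈ St q e) :
    (lam he.1 k : F) * cj q (lam he.1 ⟨_, h⟩ : F) = 1 := by
  have h1 := he.form_ne_zero (he.ac x) fun a ha => hx (mem_St.2 ⟨a, ha⟩)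
  have h2 := congrArg (ac x) (ac_lam he.1 ⟨_, h⟩)
  rw [ac_mul, ac_mul, ac_ac_inv, ac_smul] at h2
  have h3 := form_ac k.1 (ac x e) e
  rw [h2, ac_lam he.1 k, form_smul_left, form_smul_right, ← mul_assoc] at h3
  have h4 := congrArg (cj q) (mul_right_cancel₀ h1 (h3.trans (one_mul _).symm))
  rwa [map_mul, cj_cj, map_one, mul_comm] at h4

theorem degrees_su (hq : q = 3) [IsSimpleGroup GG] : 28 ∈ charDegrees GG ∧ 21 ∈ charDegrees GG := by
  have h9 : ∀ a ≤ 28, a % 2 = 1 ∧ a ≠ 1 ∧ a ∣ 6048 → a = 3 ∨ a = 7 ∨ a = 9 ∨ a = 21 ∨ a = 27 := by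
    decide +kernel
  classical
  have := Fintype.ofFinite GG
  have hG : Nat.card GG = 6048 := by rw [card_G, hq]; norm_num
  have h3 : (3 : F) = 0 := by
    have := FiniteField.cast_card_eq_zero F
    rw [IsSq.card_eq (q := q), hq] at this
    exact pow_eq_zero_iff two_ne_zero |>.1 (by rw [← this]; norm_num)
  have h2 : (2 : F) ≠ 0 := fun h => one_ne_zero (α := F) (by linear_combination h3 - h)
  have hneg : ∀ x : F, x ≠ 0 → -x ≠ x := fun x h h' => mul_ne_zero h2 h (by linear_combination -h')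
  obtain ⟨s, hs⟩ := exists_prime_orderOf_dvd_card' (G := GG) 2 (by rw [hG]; norm_num)
  have hs2 : s * s = 1 := by rw [← sq, ← hs, pow_orderOf_eq_one]
  obtain ⟨e, w, f, hf, hse, -, -⟩ := invol_odd_fr h2 hs2 (by rintro rfl; simp at hs)
  have he := hf.iso_e
  have hi : (St q e).index = 28 := by rw [index_St he, hq]; norm_num
  have hU : Nat.card (Fx q e) = 27 := by rw [card_Fx he, hq]; norm_num
  obtain ⟨μ, hμ⟩ := CommGroup.exists_apply_ne_one_of_hasEnoughRootsOfUnity Fˣ ℂ (a := -1)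
    fun h => hneg 1 one_ne_zero (congrArg Units.val h)
  obtain ⟨l, hl⟩ := exists_norm_eq (q := q) (c := (-1 : F)) (by simp)
  have hl0 : l ≠ 0 := by rintro rfl; simp at hl
  refine ⟨?_, ?_⟩
  · rw [← hi]
    refine index_mem _ (μ.comp (lam he.1)) fun x hx => ?_
    obtain ⟨g, a, h4, h5⟩ := exists_pair he (he.ac x) (he.smul hl0) (he.ac x) (fun a ha => hx (mem_St.2 ⟨a, ha⟩))
      fun a ha => hx (mem_St.2 ⟨a * l, by rw [ha, smul_smul]⟩)
    have h6 : x⁻¹ * g * x ∈ St q e := conj_mem_St.2 (mem_St.2 ⟨a, h5⟩)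
    refine ⟨⟨g, mem_St.2 ⟨l, h4⟩⟩, h6, fun h => hμ ?_⟩
    have h7 := lam_rel he hx ⟨g, mem_St.2 ⟨l, h4⟩⟩ h6
    have h8 : (lam he.1 ⟨g, mem_St.2 ⟨l, h4⟩⟩ : F) = l := lam_eq he.1 h4
    have h9 : lam he.1 ⟨_, h6⟩ = -1 * lam he.1 ⟨g, mem_St.2 ⟨l, h4⟩⟩ := Units.ext (by
      have := congrArg (cj q) h7
      rw [map_mul, cj_cj, map_one, h8] at this
      push_cast
      rw [h8]
      linear_combination (-l) * this + (lam he.1 ⟨_, h6⟩ : F) * hl)
    rwa [MonoidHom.comp_apply, MonoidHom.comp_apply, h9, map_mul, mul_eq_right] at h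
  let θ : St q e →* ℂˣ := (μ ^ 2).comp (lam he.1)
  have hθ : ∀ b : St q e, b.1 ∈ Fx q e → θ b = 1 := fun b hb => by
    simp [θ, (lam_eq_one_iff he.1).2 hb]
  have hc := H7.isClassFunction_hom θ
  obtain ⟨α, β, h4, h5⟩ := split _ _ (Fx_le_St e) θ hθ (by
    rw [← Finset.add_sum_erase _ _ (Finset.mem_univ 1), Finset.sum_congr rfl (g := fun _ => 1) fun u hu => by
      rw [H7.indFun_apply_eq_of_forall_not_mem _ hc _ fun g hg => H7.extendByZero_of_not_mem _ _ fun h => hg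
        (mem_St.2 (eq_smul_of_fix he (he.ac g) u.2 (by simpa using hu) (conj_mem_St.1 h))),
        H7.extendByZero_of_mem _ _ (Fx_le_St e u.2), hθ _ u.2, Units.val_one]]
    simp [H7.indFun_one, hi, ← Nat.card_eq_fintype_card, hU]
    norm_num) (by
    rw [isIrr_ind_iff]
    obtain ⟨x, hx⟩ : ∃ x, x ∉ St q e := by
      by_contra h
      push Not at h
      rw [(Subgroup.eq_top_iff' _).2 h] at hi
      simp at hi
    intro h
    obtain ⟨k, h6, h7⟩ := h x hx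
    have h8 : lam he.1 k * lam he.1 ⟨_, h6⟩ ^ 3 = 1 := Units.ext (by
      simpa [cj_apply, hq] using lam_rel he hx k h6)
    have h9 : lam he.1 ⟨_, h6⟩ ^ 8 = 1 := by
      have := pow_card_eq_one' (x := lam he.1 ⟨_, h6⟩)
      rwa [card_units F q, show q ^ 2 - 1 = 8 by rw [hq]; norm_num] at this
    refine h7 ?_
    show μ _ ^ 2 = μ _ ^ 2
    rw [← map_pow μ, ← map_pow μ, eq_inv_of_mul_eq_one_left h8, inv_pow, ← pow_mul, eq_comm, eq_inv_of_mul_eq_one_left (by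
      rw [← pow_add]; exact h9 : lam he.1 ⟨_, h6⟩ ^ 2 * lam he.1 ⟨_, h6⟩ ^ (3 * 2) = 1)])
  obtain ⟨g, hg⟩ := he.exists_ac (he.smul hl0)
  have hs' : ac s e = (-1 : F) • e := by rw [hse, neg_one_smul]
  have h6 : ∀ γ : IrrCharacter GG, γ = α ∨ γ = β → dg γ % 2 = 1 ∧ dg γ ≠ 1 ∧ dg γ ∣ 6048 := fun γ hγ => by
    obtain ⟨a1, a2⟩ := h5 γ hγ
    refine ⟨(parity (irr_chr γ) (Fx q e) (fun u => if xx q w f u.1 = 0 then u⁻¹ else
      ⟨s * u * s⁻¹, hf.conj_mem_Fx' hs' u.2⟩) (fun u hu => ?_) a1).trans (by rw [hU]), fun h => a2 ?_,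
      hG ▸ dg_dvd γ⟩
    · have b1 := hf.xx_conj hs' u.2
      by_cases h : xx q w f u.1 = 0
      · have b2 : xx q w f (u⁻¹ : Fx q e).1 = 0 := by
          rw [InvMemClass.coe_inv, hf.xx_inv u.2, h, neg_zero]
        simp only [if_pos h, if_pos b2]
        refine ⟨inv_ne_one.2 hu, fun b3 => hu (Subtype.ext (hf.eq_one_of_sq h2 u.2 ?_)), inv_inv _, isConj_iff.2 ⟨g, ?_⟩⟩
        · exact congrArg Subtype.val (mul_eq_one_iff_inv_eq.2 b3)
        · rw [InvMemClass.coe_inv, hf.eq_tv u.2 h, conj_tv', hg, tv_smul he.2 (hf.cj_cc u.2 h), hl, tv_inv,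
            neg_one_mul]
      · have b2 : xx q w f (s * u * s⁻¹) = - xx q w f u := by rw [b1]; simp
        simp only [if_neg h, b2, neg_eq_zero]
        refine ⟨fun b3 => hu (Subtype.ext (by simpa using congrArg Subtype.val b3)), fun b3 => hneg _ h ?_,
          Subtype.ext ?_, isConj_iff.2 ⟨s, rfl⟩⟩
        · rw [← b2, show s * u * s⁻¹ = u from congrArg Subtype.val b3]
        · show s * (s * u * s⁻¹) * s⁻¹ = u
          rw [show s * (s * u * s⁻¹) * s⁻¹ = s * s * u * (s * s)⁻¹ by group, hs2]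
          simp
    · rw [eq_triv_of_dg (noncomm_of_not_prime (by rw [hG]; norm_num)) h]
      refine H6.irr_inner_ne (H6.isIrrCharacter_of_one_eq_one (H7.isCharacter_hom θ) (by simp))
        H6.isIrrCharacter_one fun b1 => hμ ?_
      have b2 : θ ⟨g, mem_St.2 ⟨l, hg⟩⟩ = 1 := Units.ext (congrFun b1 _)
      have b3 : (-1 : Fˣ) = (lam he.1 ⟨g, mem_St.2 ⟨l, hg⟩⟩ ^ 2) ^ 2 := Units.ext (by
        push_cast
        rw [lam_eq he.1 hg, ← hl, cj_apply, hq]
        ring)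
      rw [b3, map_pow, map_pow]
      exact (congrArg (· ^ 2) b2).trans (one_pow 2)
  have h7 := h6 α (Or.inl rfl)
  have h8 := h6 β (Or.inr rfl)
  rw [hi] at h4
  have h7 := h9 _ (show charDegree α.1 ≤ 28 by omega) h7
  have h8 := h9 _ (show charDegree β.1 ≤ 28 by omega) h8
  obtain h | h : charDegree α.1 = 21 ∨ charDegree β.1 = 21 := by omega
  exacts [⟨α, h⟩, ⟨β, h⟩]

theorem degrees_psu (hq : q = 3) : Nat.card (PSU 3 F q) = 6048 ∧ (∃ d ∈ charDegrees (PSU 3 F q), 6 ∣ d) ∧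
    (∃ d ∈ charDegrees (PSU 3 F q), 14 ∣ d) ∧ ∃ d ∈ charDegrees (PSU 3 F q), 21 ∣ d := by
  have := isSimpleGroup_PSU (n := 3) (F := F) (q := q) le_rfl (by omega)
  have h1 : Subgroup.center GG = ⊥ := Subgroup.card_eq_one.1 (by rw [card_center_SU (by norm_num), hq]; norm_num)
  have e : PSU 3 F q ≃* GG := (QuotientGroup.quotientMulEquivOfEq h1).trans QuotientGroup.quotientBot
  have := e.symm.isSimpleGroup
  have h2 : Nat.card (PSU 3 F q) = 6048 := by rw [Nat.card_congr e.toEquiv, card_G, hq]; norm_num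
  obtain ⟨h3, h4⟩ := degrees_su (F := F) hq
  rw [← charDegrees_congr e] at h3 h4
  refine ⟨h2, six h2 fun g hg => ?_, ⟨_, h3, by norm_num⟩, _, h4, dvd_rfl⟩
  have : Fact (Nat.Prime 3) := ⟨Nat.prime_three⟩
  have : CharP F 3 := by
    obtain ⟨p, k, hp, hc, h3, hk⟩ := H11.U.exists_char_pow F q
    have : p = 3 := (Nat.prime_dvd_prime_iff_eq hp Nat.prime_three).1 (hq ▸ h3 ▸ dvd_pow_self p (by omega))
    exact this ▸ hc
  have h5 : orderOf g ∈ Set.range (orderOf : PSU 3 F q → ℕ) := ⟨g, rfl⟩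
  rw [spectrum_odd 3 (by norm_num)] at h5
  subst hq
  norm_num at h5
  have h6 : ∀ m ≤ 12, 7 ∣ m → (((m ∣ 4 ∨ m ∣ 12) ∨ m ∣ 8) ∨ m ∣ 7) → m = 7 := by decide +kernel
  refine h6 _ ?_ hg h5
  rcases h5 with ((h | h) | h) | h <;> exact (Nat.le_of_dvd (by norm_num) h).trans (by norm_num)

theorem exists_solvable : ∃ (H : Type) (_ : Group H) (_ : Fintype H), Group.IsSolvable H ∧ Nat.card H = 6048 ∧
    42 ∈ charDegrees H := by
  classical
  let K := GaloisField 2 3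
  have : Fintype K := Fintype.ofFinite K
  have hK : Nat.card K = 8 := GaloisField.card 2 3 (by norm_num)
  let R := K × ZMod 18
  let φ := H74.Spec.repAut (Representation.ofDistribMulAction ℤ Rˣ R)
  let ψ : AddChar R ℂ := (AddChar.FiniteField.primitiveChar_to_Complex K).compAddMonoidHom (AddMonoidHom.fst _ _) *
    (ZMod.stdAddChar (N := 18)).compAddMonoidHom (AddMonoidHom.snd _ _)
  have hψ : ψ.IsPrimitive := fun a ha h => by
    by_cases h1 : a.1 = 0
    · refine ZMod.isPrimitive_stdAddChar 18 (a := a.2) (fun h2 => ha (Prod.ext h1 h2)) (AddChar.ext _ _ fun x => ?_)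
      simpa [ψ, R] using DFunLike.congr_fun h (0, x)
    · refine AddChar.FiniteField.primitiveChar_to_Complex_isPrimitive K h1 (AddChar.ext _ _ fun x => ?_)
      simpa [ψ, R] using DFunLike.congr_fun h (x, 0)
  have hu : Nat.card Rˣ = 42 := by
    rw [Nat.card_congr MulEquiv.prodUnits.toEquiv, Nat.card_prod, Nat.card_units, hK, Nat.card_eq_fintype_card,
      ZMod.card_units_eq_totient]
    decide
  have : Finite (Multiplicative R ⋊[φ] Rˣ) := Finite.of_equiv _ SemidirectProduct.equivProd.symm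
  refine ⟨Multiplicative R ⋊[φ] Rˣ, inferInstance, Fintype.ofFinite _, H8.Spec.solvable_sd φ, ?_, ?_⟩
  · rw [SemidirectProduct.card, hu, Nat.card_congr Multiplicative.toAdd, Nat.card_prod, hK, Nat.card_zmod]
  · rw [← hu]
    refine card_mem_sd φ ψ.toMonoidHom.toHomUnits fun c hc => ?_
    by_contra h
    push Not at h
    refine hψ (a := c - 1) (fun h1 => hc (Units.ext (sub_eq_zero.1 h1))) (AddChar.ext _ _ fun x => ?_)
    have h1 : ψ (c * x) = ψ x := congrArg Units.val (h (Multiplicative.ofAdd x))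
    rw [AddChar.mulShift_apply, sub_mul, one_mul, AddChar.map_sub_eq_div, h1, AddChar.one_apply,
      div_self (ψ.val_isUnit x).ne_zero]

theorem graph {H : Type*} [Group H] [Finite H] (h : Nat.card H = 6048) (h1 : ∃ d ∈ charDegrees H, 6 ∣ d)
    (h2 : ∃ d ∈ charDegrees H, 14 ∣ d) (h3 : ∃ d ∈ charDegrees H, 21 ∣ d) :
    degreePrimes H = {2, 3, 7} ∧ ∀ a b, (degreeGraph H).Adj a b ↔ a ≠ b ∧ a ∈ ({2, 3, 7} : Set ℕ) ∧
      b ∈ ({2, 3, 7} : Set ℕ) := by
  have a1 : ∀ p, p.Prime → ∀ d ∈ charDegrees H, p ∣ d → p ∈ ({2, 3, 7} : Set ℕ) := by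
    rintro p hp _ ⟨χ, rfl⟩ hd
    have a2 : p ∣ 2 ^ 5 * 3 ^ 3 * 7 := (hd.trans (dg_dvd χ)).trans (by rw [h]; norm_num)
    simp only [hp.dvd_mul, hp.prime.dvd_pow_iff_dvd (show 5 ≠ 0 by norm_num), hp.prime.dvd_pow_iff_dvd three_ne_zero,
      Nat.prime_dvd_prime_iff_eq hp Nat.prime_two, Nat.prime_dvd_prime_iff_eq hp Nat.prime_three,
      Nat.prime_dvd_prime_iff_eq hp (show Nat.Prime 7 by norm_num)] at a2
    simpa [or_assoc] using a2
  obtain ⟨d1, h1, h1'⟩ := h1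
  obtain ⟨d2, h2, h2'⟩ := h2
  obtain ⟨d3, h3, h3'⟩ := h3
  refine ⟨Set.ext fun p => ⟨fun ⟨hp, d, hd, hd'⟩ => a1 p hp d hd hd', ?_⟩, fun a b =>
    ⟨fun ⟨c1, c2, c3, d, c4, c5⟩ => ⟨c1, a1 a c2 d c4 ((dvd_mul_right _ _).trans c5),
      a1 b c3 d c4 ((dvd_mul_left _ _).trans c5)⟩, ?_⟩⟩
  · rintro (rfl | rfl | rfl)
    exacts [⟨by norm_num, d1, h1, Dvd.dvd.trans (by norm_num) h1'⟩, ⟨by norm_num, d1, h1, Dvd.dvd.trans (by norm_num) h1'⟩,
      ⟨by norm_num, d2, h2, Dvd.dvd.trans (by norm_num) h2'⟩]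
  · rintro ⟨c1, rfl | rfl | rfl, rfl | rfl | rfl⟩ <;> first
      | exact absurd rfl c1
      | exact ⟨c1, by norm_num, by norm_num, d1, h1, h1'⟩
      | exact ⟨c1, by norm_num, by norm_num, d2, h2, h2'⟩
      | exact ⟨c1, by norm_num, by norm_num, d3, h3, h3'⟩

end H8.Deg
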