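import Mathlib
import Cfsg.Agent.Base
import Cfsg.Agent.Lib.MatConj.SpEig
import Cfsg.Agent.Lib.Sp.Order

/-!
The prime graph of `PSp₆(3)`.
-/

set_option autoImplicit false

namespace H8.Spec

/-- enough information on element orders to determine the prime graph -/
structure PG (K : Type*) [Group K] : Prop where
  up : ∀ (x : K) (r : ℕ), r.Prime → 7 ≤ r → r ∣ orderOf x → orderOf x ∣ 13 ∨ orderOf x ∣ 14
  low : ∀ n ∈ [6, 10, 13, 14, 15], ∃ x : K, n ∣ orderOf x

namespace PG

variable {K : Type*} [Group K] [Finite K] (h : PG K)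
include h

theorem low' {n : ℕ} (m : ℕ) (hm : m ∈ [6, 10, 13, 14, 15]) (hn : n ∣ m) : ∃ x : K, orderOf x = n := by
  obtain ⟨x, hx⟩ := h.low m hm
  exact H65.exists_orderOf_eq_of_dvd (hn.trans hx)

theorem dvd_iff {p : ℕ} (hp : p.Prime) : p ∣ Nat.card K ↔ p ∈ [2, 3, 5, 7, 13] := by
  have := Fact.mk hp
  constructor
  · intro h1
    obtain ⟨x, hx⟩ := exists_prime_orderOf_dvd_card' p h1
    have h2 : p < 7 ∨ p ∣ 13 ∨ p ∣ 14 := (lt_or_ge p 7).imp_right fun h7 => hx ▸ h.up x p hp h7 hx.symm.dvd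
    have h3 : p ≤ 14 := by
      rcases h2 with h2 | h2 | h2
      exacts [by omega, (Nat.le_of_dvd (by norm_num) h2).trans (by norm_num), Nat.le_of_dvd (by norm_num) h2]
    exact (by decide +kernel : ∀ p ≤ 14, p.Prime → p < 7 ∨ p ∣ 13 ∨ p ∣ 14 → p ∈ [2, 3, 5, 7, 13]) p h3 hp h2
  · have key : ∀ m ∈ [6, 10, 13, 14, 15], p ∣ m → p ∣ Nat.card K := fun m hm h1 => by
      obtain ⟨x, hx⟩ := h.low' m hm h1
      exact hx ▸ orderOf_dvd_natCard x
    simp only [List.mem_cons, List.not_mem_nil, or_false]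
    rintro (rfl | rfl | rfl | rfl | rfl)
    exacts [key 6 (by simp) (by norm_num), key 6 (by simp) (by norm_num), key 10 (by simp) (by norm_num),
      key 14 (by simp) (by norm_num), key 13 (by simp) (by norm_num)]

theorem adj_iff {p q : ℕ} (hp : p.Prime) (hq : q.Prime) (hne : p ≠ q) :
    (∃ x : K, orderOf x = p * q) ↔ p * q ∈ [6, 10, 14, 15] := by
  constructor
  · rintro ⟨x, hx⟩
    have h2 : (p < 7 ∧ q < 7) ∨ p * q ∣ 13 ∨ p * q ∣ 14 := by
      by_cases h1 : p < 7
      · by_cases h3 : q < 7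
        · exact Or.inl ⟨h1, h3⟩
        · exact Or.inr (hx ▸ h.up x q hq (by omega) (hx ▸ dvd_mul_left _ _))
      · exact Or.inr (hx ▸ h.up x p hp (by omega) (hx ▸ dvd_mul_right _ _))
    have h3 := hp.two_le
    have h4 := hq.two_le
    have h5 : p ≤ 7 ∧ q ≤ 7 := by
      rcases h2 with h2 | h2 | h2
      · omega
      all_goals have := Nat.le_of_dvd (by norm_num) h2; constructor <;> nlinarith
    exact (by decide +kernel : ∀ p ≤ 7, ∀ q ≤ 7, p.Prime ∧ q.Prime ∧ p ≠ q ∧
      ((p < 7 ∧ q < 7) ∨ p * q ∣ 13 ∨ p * q ∣ 14) → p * q ∈ [6, 10, 14, 15]) p h5.1 q h5.2 ⟨hp, hq, hne, h2⟩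
  · intro h1
    exact h.low' _ (by simp only [List.mem_cons, List.not_mem_nil, or_false] at h1 ⊢; tauto) dvd_rfl

end PG

open H65

theorem pg_psp {F : Type*} [Field F] [Fintype F] (hF : Fintype.card F = 3) : PG (Cfsg.PSp 3 F) := by
  classical
  have : Fact (Nat.Prime 3) := ⟨Nat.prime_three⟩
  have : CharP F 3 := charP_of_card_eq_prime hF
  constructor
  · intro x r hr h7 hx
    obtain ⟨A, rfl⟩ := QuotientGroup.mk_surjective x
    obtain ⟨α, hα, h1⟩ := exists_ev_of_prime_dvd (AlgebraicClosure F) 3 (det_sp_ne_zero A) hr (by omega)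
      fun m hm => hx.trans (orderOf_psp_dvd (c := 1) (by rw [hm, one_smul]))
    obtain ⟨m, O, h2, h3, h4, h5, -, h6⟩ := exists_orbit_ev (det_sp_ne_zero A) (ev_map_inv_sp A) hα
      (not_orderOf_dvd_two hr (by omega) h1)
    have h8 := card_mul_count_le h6
    have h9 := Multiset.count_pos.2 hα
    have h10 : (ev (AlgebraicClosure F) A.1).card = 6 := by rw [card_ev]; simp
    rw [hF] at h4 h5
    rw [h10, h3] at h8
    have h11 : m = 3 := by
      have h12 : m ≤ 3 := by nlinarith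
      have h13 := h4.imp h1.trans h1.trans
      interval_cases m
      · rcases h13 with h | h <;> have := Nat.le_of_dvd (by norm_num) h <;> omega
      · refine absurd h13 ((by decide +kernel : ∀ r ≤ 10, r.Prime → 7 ≤ r → ¬ (r ∣ 8 ∨ r ∣ 10)) r ?_ hr h7)
        rcases h13 with h | h <;> have := Nat.le_of_dvd (by norm_num) h <;> omega
      · rfl
    subst h11
    have h12 : O = (ev (AlgebraicClosure F) A.1).toFinset := Finset.eq_of_subset_of_card_le
      (fun γ hγ => Multiset.mem_toFinset.2 (Multiset.count_pos.1 (by rw [h6 γ hγ]; exact h9)))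
      ((Multiset.toFinset_card_le _).trans (by omega))
    have key : ∀ M, 0 < M → orderOf α ∣ 2 * M → orderOf (A : Cfsg.PSp 3 F) ∣ M := fun M hM h => by
      have a1 : α ^ M = 1 ∨ α ^ M = -1 :=
        sq_eq_one_iff.1 (by rw [← pow_mul, mul_comm]; exact orderOf_dvd_iff_pow_eq_one.1 h)
      obtain ⟨c, a2, a3⟩ : ∃ c : F, α ^ M = algebraMap F _ c ∧ (c = 1 ∨ c = -1) := by
        rcases a1 with a1 | a1
        exacts [⟨1, by simp [a1], Or.inl rfl⟩, ⟨-1, by simp [a1], Or.inr rfl⟩]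
      have a4 := pow_eq_smul_of_ev (L := AlgebraicClosure F) 3 (A := A.1) (J := 0) hM (c := c) (fun γ hγ => by
        obtain ⟨j, hj⟩ := (h5 γ).1 (h12 ▸ Multiset.mem_toFinset.2 hγ)
        have a5 : Odd (3 ^ j) := Odd.pow (by decide)
        rcases hj with rfl | rfl <;> rcases a3 with rfl | rfl <;>
          simp [pow_right_comm α _ M, a2, a5.neg_one_pow]) (fun γ => by
        by_cases hγ : γ ∈ ev (AlgebraicClosure F) A.1
        · rw [h6 γ (h12 ▸ Multiset.mem_toFinset.2 hγ)]; omega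
        · simp [Multiset.count_eq_zero_of_notMem hγ])
      exact orderOf_psp_dvd (by simpa using a4)
    exact h4.imp (key 13 (by norm_num)) (key 14 (by norm_num))
  · have key : ∀ (n : ℕ) (A : Matrix.symplecticGroup (Fin 3) F), n * 2 ∣ orderOf A →
        ∃ x : Cfsg.PSp 3 F, n ∣ orderOf x := fun n A h => by
      refine ⟨A, Nat.dvd_of_mul_dvd_mul_right two_pos (h.trans (orderOf_dvd_of_pow_eq_one ?_))⟩
      have h1 : A ^ orderOf (A : Cfsg.PSp 3 F) ∈ Subgroup.center _ :=
        (QuotientGroup.eq_one_iff _).1 (by rw [QuotientGroup.mk_pow, pow_orderOf_eq_one])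
      have h2 := pow_card_eq_one' (x := (⟨_, h1⟩ : Subgroup.center _))
      rw [H11.Sp.card_center (by norm_num), hF] at h2
      rw [pow_mul]
      exact congrArg Subtype.val h2
    obtain ⟨u, hu⟩ := exists_prime_orderOf_dvd_card' (G := Matrix.symplecticGroup (Fin 1) F) 3 (by
      rw [H11.Sp.card_G, Nat.card_eq_fintype_card, hF]; norm_num)
    obtain ⟨a4, h4⟩ := exists_sp_orderOf (F := F) (d := 1) (N := 2) (m := 4) one_pos (by norm_num) (by simp [hF])
    obtain ⟨b4, k4⟩ := exists_sp_orderOf (F := F) (d := 1) (N := 1) (m := 4) one_pos (by norm_num) (by simp [hF])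
    obtain ⟨a10, h10⟩ := exists_sp_orderOf (F := F) (d := 2) (N := 2) (m := 10) two_pos le_rfl (by simp [hF])
    obtain ⟨a26, h26⟩ := exists_sp_orderOf (F := F) (d := 3) (N := 3) (m := 26) (by norm_num) le_rfl (by simp [hF])
    obtain ⟨a28, h28⟩ := exists_sp_orderOf (F := F) (d := 3) (N := 3) (m := 28) (by norm_num) le_rfl (by simp [hF])
    obtain ⟨c1, e1⟩ := exists_sp_orderOf_lcm u a4
    obtain ⟨c2, e2⟩ := exists_sp_orderOf_lcm b4 a10
    obtain ⟨c3, e3⟩ := exists_sp_orderOf_lcm u a10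
    simp only [List.mem_cons, List.not_mem_nil, or_false]
    rintro n (rfl | rfl | rfl | rfl | rfl)
    exacts [key _ c1 (by rw [e1, hu, h4]; decide), key _ c2 (by rw [e2, k4, h10]; decide),
      key _ a26 (by rw [h26]), key _ a28 (by rw [h28]), key _ c3 (by rw [e3, hu, h10]; decide)]

end H8.Spec
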