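import Mathlib
import Cfsg.Agent.Base
import Cfsg.Agent.Lib.Spec8.Wr2
import Cfsg.Agent.Lib.Spec8.Sp63
import Cfsg.Agent.Lib.Suzuki.Aut
import Cfsg.Agent.Lib.Suzuki.Partition
import Cfsg.Agent.Lib.Cover.Fields

/-!
Extensions of `Sz(8):3` by elementary abelian 2-groups with the prime graph of `PSp₆(3)`.
-/

set_option autoImplicit false
set_option maxRecDepth 100000

namespace H8.Sz8

open H14.Sz H19.Cov H19.Cov.F8 Matrix
open SemidirectProduct hiding mk
open scoped Kronecker

instance instSzF8 : SzF F8 1 := ⟨le_rfl, rfl⟩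

local notation "G" => Cfsg.Sz F8 1
local notation "S" => stdModel F8 1

/-- the Frobenius automorphism -/
noncomputable def fr : RingAut F8 := frobeniusEquiv F8 2

theorem fr_apply (x : F8) : fr x = x ^ 2 := rfl

theorem orderOf_fr : orderOf fr = 3 :=
  haveI : Fact (Nat.Prime 3) := ⟨Nat.prime_three⟩
  orderOf_eq_prime (RingEquiv.ext (by decide +kernel : ∀ x : F8, ((x ^ 2) ^ 2) ^ 2 = x))
    fun h => absurd (congrArg (fun f : RingAut F8 => f (mk 2)) h) (by decide +kernel : (mk 2 : F8) ^ 2 ≠ mk 2)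

/-- the elements used -/
noncomputable def el (b : F8) : G := (S).u 0 b * (S).w

/-- their matrices -/
def EM (b : F8) : Matrix (Fin 4) (Fin 4) F8 := !![b ^ 4, b, 0, 1; b, 0, 1, 0; 0, 1, 0, 0; 1, 0, 0, 0]

theorem mat_el (b : F8) : (S).mat (el b) = EM b := by
  rw [el, map_mul, Model.mat_u, Model.mat_w]
  ext i j
  fin_cases i <;> fin_cases j <;> simp [uM, wM, EM, nrm, th_apply, Matrix.mul_apply, Fin.sum_univ_four]

/-- a table of powers -/
def tab (c i : ℕ) : Matrix (Fin 4) (Fin 4) F8 := of fun a b => ofN (c >>> (3 * (16 * i + 4 * a.1 + b.1)))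

theorem mat_pow {b : F8} {c n : ℕ} (h : tab c 0 = 1 ∧ ∀ i < n, tab c i * EM b = tab c ((i + 1) % n))
    (i : ℕ) (hn : 0 < n) : (S).mat (el b ^ i) = tab c (i % n) := by
  induction i with
  | zero => rw [pow_zero, map_one, Nat.zero_mod, h.1]
  | succ i ih => rw [pow_succ, map_mul, ih, mat_el, h.2 _ (Nat.mod_lt _ hn), Nat.mod_add_mod]

theorem orderOf_el {b : F8} {c n : ℕ} (h : tab c 0 = 1 ∧ ∀ i < n, tab c i * EM b = tab c ((i + 1) % n))
    (hn : n.Prime) : orderOf (el b) = n :=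
  haveI := Fact.mk hn
  orderOf_eq_prime ((S).mat_injective (by rw [mat_pow h _ hn.pos, Nat.mod_self, h.1, map_one]))
    fun h1 => by simpa [EM] using congrFun (congrFun ((mat_el b).symm.trans ((congrArg _ h1).trans (map_one _))) 0) 3

/-- powers of an element of order 5 -/
def c5 : ℕ := 0x241208040200249201208241209041201249001008041209200040008001
/-- powers of an element of order 7 -/
def c7 : ℕ := 0xc81408040200fd6f42408c81ffff6ff42fd6cbf42ff6ffff21604242fcbf001008042216200040008001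
/-- powers of an element of order 13 -/
def c13 : ℕ := 0xec1608040200e9f503608ec14573a2503e9f30a9f13a24574a147c9f130a49244a47c4a13129ca44a4924613bc9ca312e8a5313bc461ed7622531e8a21f043622ed700100804321f200040008001

theorem t5 : tab c5 0 = 1 ∧ ∀ i < 5, tab c5 i * EM 1 = tab c5 ((i + 1) % 5) := by decide +kernel
theorem t7 : tab c7 0 = 1 ∧ ∀ i < 7, tab c7 i * EM (mk 2) = tab c7 ((i + 1) % 7) := by decide +kernel
theorem t13 : tab c13 0 = 1 ∧ ∀ i < 13, tab c13 i * EM (mk 3) = tab c13 ((i + 1) % 13) := by decide +kernel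

theorem o5 : orderOf (el 1) = 5 := orderOf_el t5 (by norm_num)
theorem o7 : orderOf (el (mk 2)) = 7 := orderOf_el t7 (by norm_num)
theorem o13 : orderOf (el (mk 3)) = 13 := orderOf_el t13 (by norm_num)

theorem card_G : Nat.card G = 29120 := (S).card_G

instance instFiniteSz8 : Finite G := (S).finite

theorem orderOf_cases (g : G) : orderOf g ∣ 64 ∨ orderOf g ∣ 7 ∨ orderOf g ∣ 13 ∨ orderOf g ∣ 5 := by
  by_cases h : g = 1
  · simp [h]
  have h1 : ∀ K : Subgroup G, Subgroup.zpowers g ≤ K → orderOf g ∣ Nat.card K := fun K hK =>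
    K.orderOf_dvd_natCard (Subgroup.zpowers_le.1 hK)
  letI : CommGroup (Subgroup.zpowers g) := IsCyclic.commGroup
  rcases (S).le_member_of_nilpotent (K := Subgroup.zpowers g) (by simpa using h) with
    ⟨x, hx⟩ | ⟨x, hx⟩ | ⟨A, hA, hx⟩
  · exact Or.inl ((h1 _ hx).trans (Model.card_U _).dvd)
  · exact Or.inr (Or.inl ((h1 _ hx).trans (Model.card_H _).dvd))
  · exact Or.inr (Or.inr (hA.card_cases.imp (fun e => (h1 _ hx).trans e.dvd) fun e => (h1 _ hx).trans e.dvd))

/-- the twisted tensor square of the natural module -/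
noncomputable def W : G →* Matrix (Fin 4 × Fin 4) (Fin 4 × Fin 4) F8 where
  toFun g := (S).mat g ⊗ₖ (S).mat ((S).fieldAut fr g)
  map_one' := by simp
  map_mul' a b := by simp [mul_kronecker_mul]

theorem W_apply (g : G) (a b c d : Fin 4) : W g (a, c) (b, d) = (S).mat g a b * (S).mat g c d ^ 2 := by
  change (S).mat g a b * (S).mat ((S).fieldAut fr g) c d = _
  rw [Model.mat_fieldAut]; rfl

theorem sum_W_el : ∑ i ∈ Finset.range 13, W (el (mk 3) ^ i) = 0 := by
  ext ⟨a, c⟩ ⟨b, d⟩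
  rw [Matrix.sum_apply, Finset.sum_congr rfl fun i hi => by
    rw [W_apply, mat_pow t13 i (by norm_num), Nat.mod_eq_of_lt (Finset.mem_range.1 hi)]]
  revert a b c d
  decide +kernel

theorem sum_W {y : G} (hy : orderOf y = 13) : ∑ i ∈ Finset.range 13, W (y ^ i) = 0 := by
  obtain ⟨k, j, hj⟩ := exists_conj_of_prime (by norm_num) (by rw [card_G]; norm_num) o13 hy
  have h1 : W y * ∑ i ∈ Finset.range 13, W (y ^ i) = ∑ i ∈ Finset.range 13, W (y ^ i) := by
    have := mul_geom_sum (W y) 13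
    rw [← map_pow, orderOf_dvd_iff_pow_eq_one.1 hy.dvd, map_one, sub_self, sub_mul, one_mul, sub_eq_zero] at this
    simpa only [map_pow] using this
  generalize ∑ i ∈ Finset.range 13, W (y ^ i) = N at h1
  have h2 : ∀ n, W (y ^ n) * N = N := fun n => by
    induction n with
    | zero => simp
    | succ n ih => rw [pow_succ, map_mul, mul_assoc, h1, ih]
  have h3 : (∑ i ∈ Finset.range 13, W ((y ^ j) ^ i)) * N = 13 • N := by
    simp only [Finset.sum_mul, ← pow_mul, h2, Finset.sum_const, Finset.card_range]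
  simp only [hj, conj_pow, map_mul, ← Finset.sum_mul, ← Finset.mul_sum, sum_W_el, mul_zero, zero_mul] at h3
  ext a b
  have := congrFun (congrFun h3 a) b
  rw [Matrix.smul_apply] at this
  exact (by decide +kernel : ∀ t : F8, 0 = 13 • t → t = 0) _ this

/-- the automorphism group of `Sz(8)` -/
abbrev Γ : Type := G ⋊[(S).fieldAutHom.comp (Subgroup.zpowers fr).subtype] Subgroup.zpowers fr

theorem card_Γ : Nat.card Γ = 87360 := by
  rw [Nat.card_congr equivProd, Nat.card_prod, card_G, Nat.card_zpowers, orderOf_fr]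

instance instFiniteΓ : Finite Γ := Nat.finite_of_card_ne_zero (by rw [card_Γ]; norm_num)

/-- the field automorphism -/
noncomputable def φ : Γ := inr ⟨fr, Subgroup.mem_zpowers fr⟩

theorem orderOf_φ : orderOf φ = 3 := by
  rw [φ, orderOf_injective _ inr_injective, Subgroup.orderOf_mk, orderOf_fr]

theorem commute_iff (g : G) : Commute (inl g : Γ) φ ↔ (S).fieldAut fr g = g := by
  rw [Commute, SemiconjBy, eq_comm, ← mul_inv_eq_iff_eq_mul, φ, ← map_inv, ← inl_aut, inl_inj]
  rfl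

theorem exists_inl {γ : Γ} (h : (orderOf γ).Coprime 3) : ∃ g : G, inl g = γ := by
  have h1 : orderOf (rightHom γ) ∣ 3 :=
    (orderOf_dvd_natCard _).trans (by rw [Nat.card_zpowers, orderOf_fr])
  have h2 : γ ∈ (rightHom : Γ →* _).ker :=
    orderOf_eq_one_iff.1 (Nat.eq_one_of_dvd_coprimes h (orderOf_map_dvd _ γ) h1)
  rwa [← range_inl_eq_ker_rightHom] at h2

theorem orderOf_inl (g : G) : orderOf (inl g : Γ) = orderOf g := orderOf_injective _ inl_injective g

theorem not_commute {r : ℕ} (hr : r.Prime) (h1 : ¬ r ^ 2 ∣ 29120) (h3 : r.Coprime 3) {b : F8}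
    (hb : orderOf (el b) = r) (hb' : (b ^ 4) ^ 2 ≠ b ^ 4) {x t : Γ} (hx : orderOf x = r) (ht : orderOf t = 3) :
    ¬ Commute x t := fun h => by
  obtain ⟨k, j, hj⟩ := exists_conj_of_prime Nat.prime_three (by rw [card_Γ]; norm_num) orderOf_φ ht
  have h4 : orderOf (k⁻¹ * x * k) = r := by
    rw [← hx, ← (MulAut.conj k⁻¹).orderOf_eq x, MulAut.conj_apply, inv_inv]
  obtain ⟨g, hg⟩ := exists_inl (h4 ▸ h3)
  have h5 : Commute (inl g : Γ) φ := by
    have := (h.pow_right j).conj k⁻¹
    rw [hj, inv_inv, ← hg] at this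
    simpa [mul_assoc] using this
  rw [← hg, orderOf_inl] at h4
  obtain ⟨l, i, hi⟩ := exists_conj_of_prime hr (by rwa [card_G]) hb h4
  have h6 := (S).mat_fieldAut fr (g ^ i)
  rw [map_pow, (commute_iff g).1 h5] at h6
  have h7 : ((S).mat (g ^ i)).trace = b ^ 4 := by
    rw [hi, map_mul, trace_mul_comm, ← map_mul, inv_mul_cancel_left, mat_el]
    simp [EM, trace, Fin.sum_univ_four]
  have h8 := AddMonoidHom.map_trace (fr : F8 →+* F8) ((S).mat (g ^ i))
  exact hb' ((h7 ▸ h8).trans (by rw [← h7]; exact congrArg trace h6.symm))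

theorem orderOf_Γ {γ : Γ} {r : ℕ} (hr : r.Prime) (h7 : 7 ≤ r) (h : r ∣ orderOf γ) :
    orderOf γ = 7 ∨ orderOf γ = 13 := by
  have h3 : r.Coprime 3 := (Nat.coprime_primes hr Nat.prime_three).2 (by omega)
  obtain ⟨g, hg⟩ : γ ^ 3 ∈ (inl : G →* Γ).range := by
    rw [range_inl_eq_ker_rightHom, MonoidHom.mem_ker, map_pow, ← orderOf_fr, ← Nat.card_zpowers,
      pow_card_eq_one']
  have h1 : orderOf γ ∣ 3 * orderOf g := orderOf_dvd_of_pow_eq_one (by
    rw [pow_mul, ← hg, ← map_pow, pow_orderOf_eq_one, map_one])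
  have h2 := h3.dvd_of_dvd_mul_left (h.trans h1)
  have h4 : (r = 7 ∨ r = 13) ∧ orderOf g ∣ r := by
    rcases orderOf_cases g with h5 | h5 | h5 | h5
    · have := Nat.le_of_dvd two_pos (hr.dvd_of_dvd_pow (n := 6) (h2.trans h5))
      omega
    · obtain rfl := (Nat.prime_dvd_prime_iff_eq hr (by norm_num)).1 (h2.trans h5)
      exact ⟨Or.inl rfl, h5⟩
    · obtain rfl := (Nat.prime_dvd_prime_iff_eq hr (by norm_num)).1 (h2.trans h5)
      exact ⟨Or.inr rfl, h5⟩
    · have := Nat.le_of_dvd (by norm_num) (h2.trans h5)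
      omega
  obtain ⟨k, hk⟩ := h
  have h5 : k ∣ 3 := Nat.dvd_of_mul_dvd_mul_left hr.pos (by
    rw [← hk, mul_comm]; exact h1.trans (Nat.mul_dvd_mul_left _ h4.2))
  rcases (Nat.dvd_prime Nat.prime_three).1 h5 with rfl | rfl
  · rw [hk, mul_one]; exact h4.1
  · have a1 : orderOf (γ ^ 3) = r := by rw [orderOf_pow_of_dvd (by norm_num) (hk ▸ dvd_mul_left _ _), hk]; simp
    have a2 : orderOf (γ ^ r) = 3 := by
      rw [orderOf_pow_of_dvd hr.ne_zero (hk ▸ dvd_mul_right _ _), hk, Nat.mul_div_cancel_left _ hr.pos]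
    rcases h4.1 with rfl | rfl
    · exact absurd (Commute.pow_pow_self γ _ _) (not_commute hr (by norm_num) h3 o7 (by decide +kernel) a1 a2)
    · exact absurd (Commute.pow_pow_self γ _ _) (not_commute hr (by norm_num) h3 o13 (by decide +kernel) a1 a2)

/-- the permuted coordinates -/
@[ext] structure Pt (n : ℕ) : Type where
  /-- the copy -/
  i : Fin n
  /-- the point -/
  x : Γ

noncomputable instance instMulActionPt (n : ℕ) : MulAction Γ (Pt n) where
  smul g x := ⟨x.i, g * x.x⟩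
  one_smul _ := Pt.ext rfl (one_mul _)
  mul_smul _ _ _ := Pt.ext rfl (mul_assoc _ _ _)

instance instFinitePt (n : ℕ) : Finite (Pt n) :=
  Finite.of_injective (fun x : Pt n => (x.i, x.x)) fun _ _ h =>
    Pt.ext (congrArg Prod.fst h) (congrArg Prod.snd h)

open Classical in
/-- a matrix coefficient of the induced module -/
noncomputable def m₀ (γ : Γ) : F8 := if γ.right = 1 then W γ.left (0, 1) (0, 2) else 0

theorem m₀_inl (g : G) : m₀ (inl g) = W g (0, 1) (0, 2) := if_pos rfl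

theorem sum_m₀ (k x : Γ) : ∑ i ∈ Finset.range 13, m₀ (k * (inl (el (mk 3)) ^ i * x)) = 0 := by
  have h1 : orderOf (k * inl (el (mk 3)) * k⁻¹) = 13 := by
    rw [← MulAut.conj_apply, MulEquiv.orderOf_eq, orderOf_inl, o13]
  obtain ⟨y, hy⟩ := exists_inl (γ := k * inl (el (mk 3)) * k⁻¹) (by rw [h1]; norm_num)
  have h2 : ∀ i, k * (inl (el (mk 3)) ^ i * x) = inl (y ^ i) * (k * x) := fun i => by
    rw [map_pow, hy, conj_pow]; group
  simp only [h2]
  generalize k * x = z
  by_cases h : z.right = 1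
  · have : ∀ i, m₀ (inl (y ^ i) * z) = (W (y ^ i) * W z.left) (0, 1) (0, 2) := fun i => by
      rw [m₀, if_pos (by rw [mul_right, right_inl, h, mul_one]), ← map_mul, mul_left, left_inl, right_inl,
        map_one, MulAut.one_apply]
    simp only [this]
    rw [← Matrix.sum_apply, ← Finset.sum_mul, sum_W (by rw [← orderOf_inl, hy, h1]), zero_mul, Matrix.zero_apply]
  · exact Finset.sum_eq_zero fun i _ => if_neg (by rwa [mul_right, right_inl, one_mul])

/-- the extension -/
abbrev HH (n : ℕ) : Type := Wr.Nm (X := Pt n) (A := F8) (inl (el (mk 3)) : Γ) 13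

/-- elements of the extension -/
noncomputable def elt {n : ℕ} (c : Fin n → F8) (γ : Γ) : HH n :=
  ⟨⟨fun x => c x.i * m₀ x.x, γ⟩, fun k x => by
    change ∑ i ∈ Finset.range 13, c x.i * m₀ (k * (inl (el (mk 3)) ^ i * x.x)) = 0
    rw [← Finset.mul_sum, sum_m₀, mul_zero]⟩

theorem lt_card (n : ℕ) : n < Nat.card (HH n) := by
  have h : Function.Injective (fun c => elt (n := n) c 1) := fun c d h => funext fun i => by
    have h1 : c i * m₀ (inl (el 1)) = d i * m₀ (inl (el 1)) :=
      congrArg (fun a : HH n => a.1.m ⟨i, inl (el 1)⟩) h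
    rw [m₀_inl, W_apply, mat_el] at h1
    exact mul_right_cancel₀ (by decide +kernel) h1
  refine lt_of_lt_of_le ?_ (Nat.card_le_card_of_injective _ h)
  rw [Nat.card_fun, natCard_eq, Nat.card_fin]
  exact Nat.lt_pow_self (by norm_num)

theorem two_smul' : ∀ t : F8, 2 • t = 0 := by decide +kernel

theorem orderOf_elt {n : ℕ} {b : F8} {c r : ℕ} (hr : r.Prime)
    (h : tab c 0 = 1 ∧ ∀ i < r, tab c i * EM b = tab c ((i + 1) % r))
    (h1 : ∑ i ∈ Finset.range r, tab c i 0 0 * tab c i 1 2 ^ 2 ≠ 0) :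
    orderOf (elt (n := n + 1) 1 (inl (el b))) = r * 2 := by
  have h2 : orderOf (elt (n := n + 1) 1 (inl (el b))).1.g = r := (orderOf_inl _).trans (orderOf_el h hr)
  rw [← Subgroup.orderOf_coe, Wr.orderOf_eq_mul Nat.prime_two two_smul' (x := ⟨0, 1⟩), h2]
  rw [h2]
  refine fun h3 => h1 (Eq.trans (Finset.sum_congr rfl fun i hi => ?_) h3)
  change _ = 1 * m₀ (inl (el b) ^ i * 1)
  rw [one_mul, mul_one, ← map_pow, m₀_inl, W_apply, mat_pow h i hr.pos, Nat.mod_eq_of_lt (Finset.mem_range.1 hi)]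

theorem pg (n : ℕ) : Spec.PG (HH (n + 1)) := by
  constructor
  · intro x r hr h7 h
    have h1 := Wr.orderOf_dvd_mul two_smul' x.1
    rw [← Subgroup.orderOf_coe] at h ⊢
    rcases orderOf_Γ hr h7 (((Nat.coprime_primes hr Nat.prime_two).2 (by omega)).dvd_of_dvd_mul_right
      (h.trans h1)) with h2 | h2
    · exact Or.inr (by rwa [h2] at h1)
    · exact Or.inl (Wr.orderOf_dvd_of_mem two_smul' (by norm_num) (by norm_num) (by rw [card_Γ]; norm_num)
        ((orderOf_inl _).trans o13) x.2 h2)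
  · have key : ∀ (γ : Γ) (m : ℕ), orderOf γ = m → ∃ x : HH (n + 1), m ∣ orderOf x := fun γ m h =>
      ⟨⟨_, Wr.zero_mem _ _ γ⟩, by rw [Subgroup.orderOf_mk, Wr.orderOf_zero, h]⟩
    have k2 : ∀ (g : G) (m : ℕ), orderOf g = m → m.Coprime 3 → (S).fieldAut fr g = g →
        ∃ x : HH (n + 1), m * 3 ∣ orderOf x := fun g m h1 h2 h3 => key (inl g * φ) _ (by
      rw [((commute_iff g).2 h3).orderOf_mul_eq_mul_orderOf_of_coprime
        (by rwa [orderOf_inl, orderOf_φ, h1]), orderOf_inl, orderOf_φ, h1])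
    simp only [List.mem_cons, List.not_mem_nil, or_false]
    rintro m (rfl | rfl | rfl | rfl | rfl)
    · refine k2 (S).w 2 (orderOf_eq_prime (by rw [sq, Model.w_mul_w]) fun h => (S).w_not_mem_B ?_)
        (by norm_num) (Model.fieldAut_w _ _)
      rw [h]; exact one_mem _
    · exact ⟨_, (orderOf_elt (by norm_num) t5 (by decide +kernel)).symm.dvd⟩
    · exact key _ _ ((orderOf_inl _).trans o13)
    · exact ⟨_, (orderOf_elt (by norm_num) t7 (by decide +kernel)).symm.dvd⟩
    · exact k2 (el 1) 5 o5 (by norm_num) (by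
        rw [el, map_mul, Model.fieldAut_u, Model.fieldAut_w, map_zero, map_one])

end H8.Sz8
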